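import Mathlib

/-!
# Linear algebra for extremely primitive affine groups (statement S3521)

Small invariant subspaces of an automorphism of prime order, and the criterion saying that a
submodule with at most `finrank E L` generators of a homogeneous module is cyclic.
-/

set_option autoImplicit false

open Polynomial

namespace CfsgLib.OddCons.ExtremelyPrimitive

section Poly

variable {E : Type*} [Field E] {M : Type*} [AddCommGroup M] [Module E M]

/-- An invariant subspace killed by `P` contains a vector killed by an irreducible factor of `P`. -/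
theorem exists_irreducible_killed (g : Module.End E M) (Z : Submodule E M)
    (hZ : ∀ z ∈ Z, g z ∈ Z) {P : E[X]} (hP : P ≠ 0) {v : M} (hv : v ∈ Z) (hv0 : v ≠ 0)
    (hPv : aeval g P v = 0) :
    ∃ p : E[X], p.Monic ∧ Irreducible p ∧ p ∣ P ∧ ∃ w ∈ Z, w ≠ 0 ∧ aeval g p w = 0 := by
  classical
  have hZP : ∀ (Q : E[X]) (z : M), z ∈ Z → aeval g Q z ∈ Z := by
    intro Q
    induction Q using Polynomial.induction_on' with
    | add a b ha hb =>
      intro z hz
      rw [map_add, LinearMap.add_apply]
      exact Z.add_mem (ha z hz) (hb z hz)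
    | monomial n c =>
      intro z hz
      rw [aeval_monomial, Module.End.mul_apply, Module.algebraMap_end_apply]
      refine Z.smul_mem c ?_
      induction n with
      | zero => simpa using hz
      | succ k ih => rw [pow_succ', Module.End.mul_apply]; exact hZ _ ih
  revert hPv v
  induction P using WfDvdMonoid.induction_on_irreducible with
  | zero => exact absurd rfl hP
  | unit u hu =>
    intro v hv hv0 hPv
    obtain ⟨w, hw⟩ := hu.exists_left_inv
    refine absurd ?_ hv0
    have := congrArg (fun Q => aeval g Q v) hw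
    simpa [map_mul, Module.End.mul_apply, hPv] using this.symm
  | mul a q ha hq ih =>
    intro v hv hv0 hPv
    rw [map_mul, Module.End.mul_apply] at hPv
    by_cases h : aeval g a v = 0
    · obtain ⟨p, h1, h2, h3, h4⟩ := ih ha hv hv0 h
      exact ⟨p, h1, h2, h3.mul_left q, h4⟩
    · have hassoc : Associated (normalize q) q := normalize_associated q
      refine ⟨normalize q, Polynomial.monic_normalize hq.ne_zero, hassoc.irreducible_iff.2 hq,
        hassoc.dvd.trans (dvd_mul_right q a), _, hZP a v hv, h, ?_⟩
      obtain ⟨u, hu⟩ := hassoc.symm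
      rw [← hu, mul_comm, map_mul, Module.End.mul_apply, hPv, map_zero]

/-- The invariant subspace generated by a vector killed by a monic polynomial. -/
theorem exists_small_invariant (g : Module.End E M) {p : E[X]} (hp : p.Monic) (hp1 : p ≠ 1)
    {w : M} (hw : aeval g p w = 0) :
    ∃ S : Submodule E M, w ∈ S ∧ (∀ z ∈ S, g z ∈ S) ∧
      Module.finrank E S ≤ p.natDegree := by
  set n := p.natDegree with hn
  have hdeg : (n : WithBot ℕ) = p.degree := (degree_eq_natDegree hp.ne_zero).symm
  let F : degreeLT E n →ₗ[E] M :=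
    { toFun := fun Q => aeval g (Q : E[X]) w
      map_add' := fun a b => by simp [map_add]
      map_smul' := fun c a => by simp [map_smul] }
  have hmod : ∀ Q : E[X], aeval g Q w ∈ LinearMap.range F := by
    intro Q
    have hmem : Q %ₘ p ∈ degreeLT E n := by
      rw [mem_degreeLT, hdeg]
      exact degree_modByMonic_lt Q hp
    refine ⟨⟨_, hmem⟩, ?_⟩
    show aeval g (Q %ₘ p) w = aeval g Q w
    conv_rhs => rw [← modByMonic_add_div Q p, map_add, mul_comm p, map_mul, LinearMap.add_apply,
      Module.End.mul_apply, hw, map_zero, add_zero]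
  refine ⟨LinearMap.range F, ?_, ?_, ?_⟩
  · simpa using hmod 1
  · rintro _ ⟨Q, rfl⟩
    have := hmod (X * (Q : E[X]))
    rw [map_mul, aeval_X, Module.End.mul_apply] at this
    exact this
  · refine le_trans (LinearMap.finrank_range_le F) ?_
    rw [(degreeLTEquiv E n).finrank_eq, Module.finrank_fin_fun]

/-- A nontrivial automorphism of odd prime order moves a vector killed by an irreducible factor
of `X ^ r - 1`. -/
theorem exists_nonfix_factor (h2 : ∀ x : M, x + x = 0) (g : Module.End E M) {r : ℕ} (hr : Odd r)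
    (hgr : g ^ r = 1) (hg : g ≠ 1) :
    ∃ p : E[X], p.Monic ∧ Irreducible p ∧ p ∣ X ^ r - 1 ∧
      ∃ w : M, g w ≠ w ∧ aeval g p w = 0 := by
  have hZ : ∀ z ∈ LinearMap.range (g - 1), g z ∈ LinearMap.range (g - 1) := by
    rintro _ ⟨u, rfl⟩
    exact ⟨g u, by simp [map_sub]⟩
  obtain ⟨u, hu⟩ : ∃ u, (g - 1) u ≠ 0 := by
    by_contra h
    push Not at h
    exact hg (LinearMap.ext fun u => sub_eq_zero.1 (h u))
  have hP : (X ^ r - 1 : E[X]) ≠ 0 := X_pow_sub_C_ne_zero hr.pos 1
  obtain ⟨p, hpm, hpi, hpd, w, ⟨u', rfl⟩, hw0, hw⟩ := exists_irreducible_killed g _ hZ hP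
    (LinearMap.mem_range_self (g - 1) u) hu (by simp [hgr])
  refine ⟨p, hpm, hpi, hpd, (g - 1) u', fun hfix => hw0 ?_, hw⟩
  have hpow : ∀ i : ℕ, (g ^ i) u' = u' + i • ((g - 1) u') := by
    intro i
    induction i with
    | zero => simp
    | succ k ih =>
      have h1 : g u' = u' + (g - 1) u' := by simp
      rw [pow_succ', Module.End.mul_apply, ih, map_add, map_nsmul, hfix, succ_nsmul', ← add_assoc,
        ← h1]
  have h3 := hpow r
  rw [hgr, Module.End.one_apply, left_eq_add] at h3
  obtain ⟨k, hk⟩ := hr
  rw [hk, succ_nsmul, mul_comm, mul_nsmul', two_nsmul, h2, nsmul_zero, zero_add] at h3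
  exact h3

variable [Finite E]

/-- The exponent attached to a nontrivial linear map of odd prime order. -/
theorem exists_dvd_card_pow_sub_one [FiniteDimensional E M] (h2 : ∀ x : M, x + x = 0)
    (g : Module.End E M) {r : ℕ} (hr : r.Prime) (hr2 : r ≠ 2) (hgr : g ^ r = 1) (hg : g ≠ 1) :
    ∃ j : ℕ, 0 < j ∧ j ≤ Module.finrank E M ∧ r ∣ Nat.card E ^ j - 1 := by
  obtain ⟨p, hpm, hpi, hpd, w, hwf, hw⟩ :=
    exists_nonfix_factor h2 g (hr.odd_of_ne_two hr2) hgr hg
  refine ⟨p.natDegree, hpi.natDegree_pos, ?_, ?_⟩
  · have hdvd : p ∣ minpoly E g := by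
      refine (hpi.coprime_iff_not_dvd).not_left.1 fun hc => ?_
      obtain ⟨a, b, hab⟩ := hc
      have hw0 : w ≠ 0 := fun e => hwf (by rw [e, map_zero])
      apply hw0
      have h0 := congrArg (fun Q => aeval g Q w) hab
      simpa [Module.End.mul_apply, hw, minpoly.aeval] using h0.symm
    calc p.natDegree ≤ (minpoly E g).natDegree :=
          natDegree_le_of_dvd hdvd (minpoly.ne_zero (Algebra.IsIntegral.isIntegral g))
      _ ≤ g.charpoly.natDegree :=
          natDegree_le_of_dvd (LinearMap.minpoly_dvd_charpoly g) g.charpoly_monic.ne_zero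
      _ = Module.finrank E M := g.charpoly_natDegree
  · haveI : Fact (Irreducible p) := ⟨hpi⟩
    set a := AdjoinRoot.root p with ha
    have hq : 1 < Nat.card E := Finite.one_lt_card
    have hqp : 1 ≤ Nat.card E ^ p.natDegree := Nat.one_le_pow _ _ (by omega)
    have h1 : a ^ r = 1 := by
      have := AdjoinRoot.mk_eq_zero.2 hpd
      simpa [ha, sub_eq_zero] using this
    have ha0 : a ≠ 0 := fun e => by
      rw [e, zero_pow hr.ne_zero] at h1
      exact zero_ne_one h1
    have h3 : a ^ (Nat.card E ^ p.natDegree - 1) = 1 := by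
      have := AdjoinRoot.mk_eq_zero.2
        ((hpi.natDegree_dvd_iff_dvd_X_pow_card_pow_sub_X).1 dvd_rfl)
      have h4 : a ^ (Nat.card E ^ p.natDegree) = a := by simpa [ha, sub_eq_zero] using this
      rw [← Nat.sub_add_cancel hqp, pow_succ] at h4
      exact (mul_eq_right₀ ha0).1 h4
    have ha1 : a ≠ 1 := fun e => by
      have hd : p ∣ X - 1 := AdjoinRoot.mk_eq_zero.1 (by simp [← ha, e])
      obtain ⟨c, hc⟩ := hd
      have := congrArg (fun Q => aeval g Q w) hc
      rw [mul_comm] at this
      simp [Module.End.mul_apply, hw, sub_eq_zero] at this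
      exact hwf this
    have ho : orderOf a = r := by
      rcases (Nat.dvd_prime hr).1 (orderOf_dvd_of_pow_eq_one h1) with h | h
      · exact absurd (orderOf_eq_one_iff.1 h) ha1
      · exact h
    exact ho ▸ orderOf_dvd_of_pow_eq_one h3

/-- An automorphism of prime order fixing all small invariant subspaces pointwise is trivial. -/
theorem eq_one_of_small_fixed (h2 : ∀ x : M, x + x = 0) (g : Module.End E M) {r : ℕ}
    (hr : r.Prime) (hgr : g ^ r = 1) {d : ℕ} (hd : 2 ≤ d)
    (hj : r ≠ 2 → ∃ j : ℕ, 0 < j ∧ j ≤ d ∧ r ∣ Nat.card E ^ j - 1)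
    (hfix : ∀ S : Submodule E M, (∀ z ∈ S, g z ∈ S) → Module.finrank E S ≤ d →
      ∀ z ∈ S, g z = z) : g = 1 := by
  classical
  by_cases hr2 : r = 2
  · subst hr2
    refine LinearMap.ext fun x => ?_
    have hgg : g (g x) = x := by rw [← Module.End.mul_apply, ← pow_two, hgr, Module.End.one_apply]
    refine hfix (Submodule.span E (Set.range ![x, g x])) ?_ ?_ x
      (Submodule.subset_span ⟨0, rfl⟩)
    · intro z hz
      induction hz using Submodule.span_induction with
      | mem z hz =>
        obtain ⟨i, rfl⟩ := hz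
        fin_cases i
        · exact Submodule.subset_span ⟨1, rfl⟩
        · simpa [hgg] using (Submodule.subset_span ⟨0, rfl⟩ :
            x ∈ Submodule.span E (Set.range ![x, g x]))
      | zero => simp
      | add a b _ _ ha hb => rw [map_add]; exact add_mem ha hb
      | smul c a _ ha => rw [map_smul]; exact Submodule.smul_mem _ c ha
    · exact le_trans (finrank_range_le_card _) (by simpa using hd)
  · by_contra hg
    obtain ⟨p, hpm, hpi, hpd, w, hwf, hw⟩ :=
      exists_nonfix_factor h2 g (hr.odd_of_ne_two hr2) hgr hg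
    obtain ⟨j, hj0, hjd, k, hk⟩ := hj hr2
    have hdvd : p ∣ X ^ (Nat.card E) ^ j - X := by
      have h1 : (X ^ r - 1 : E[X]) ∣ (X ^ r) ^ k - 1 := sub_one_dvd_pow_sub_one _ _
      have hqp : 1 ≤ Nat.card E ^ j := Nat.one_le_pow _ _ Nat.card_pos
      rw [← Nat.sub_add_cancel hqp, hk, pow_succ, pow_mul,
        show ((X : E[X]) ^ r) ^ k * X - X = ((X ^ r) ^ k - 1) * X by ring]
      exact (hpd.trans h1).mul_right X
    have hle : p.natDegree ≤ d :=
      le_trans (Nat.le_of_dvd hj0 (hpi.natDegree_dvd_of_dvd_X_pow_card_pow_sub_X hdvd)) hjd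
    obtain ⟨S, hwS, hSinv, hSdim⟩ := exists_small_invariant g hpm hpi.ne_one hw
    exact hwf (hfix S hSinv (hSdim.trans hle) w hwS)

end Poly

section Cyclic

variable {B : Type*} [Ring B] {L : Type*} [AddCommGroup L] [Module B L]

/-- A tuple independent over the endomorphism field generates the power of a simple module. -/
theorem span_singleton_eq_top_of_independent [IsSimpleModule B L] {f : ℕ} (y : Fin f → L)
    (hy : ∀ e : Fin f → Module.End B L, ∑ i, e i (y i) = 0 → e = 0) :
    Submodule.span B {y} = (⊤ : Submodule B (Fin f → L)) := by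
  classical
  by_contra hK
  obtain ⟨C, hC⟩ := exists_isCompl (Submodule.span B {y})
  have hCb : C ≠ ⊥ := fun e => hK (by simpa [e] using hC.sup_eq_top)
  obtain ⟨c, hc, hc0⟩ := Submodule.exists_mem_ne_zero_of_ne_bot hCb
  obtain ⟨i, hi⟩ : ∃ i, c i ≠ 0 := by
    by_contra h
    push Not at h
    exact hc0 (funext h)
  let π : (Fin f → L) →ₗ[B] L :=
    (LinearMap.proj i).comp (Submodule.projection C _ hC.symm)
  have hπy : π y = 0 := by
    simp [π, (Submodule.projection_apply_eq_zero_iff hC.symm).2
      (Submodule.subset_span rfl : y ∈ Submodule.span B {y})]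
  have hπc : π c = c i := by
    simp [π, Submodule.projection_apply_left hC.symm ⟨c, hc⟩]
  have hsum : ∀ x : Fin f → L, π x = ∑ k, (π.comp (LinearMap.single B (fun _ => L) k)) (x k) := by
    intro x
    conv_lhs => rw [← Finset.univ_sum_single x]
    simp [map_sum]
  have he := hy (fun k => π.comp (LinearMap.single B (fun _ => L) k)) (by rw [← hsum, hπy])
  apply hi
  rw [← hπc, hsum]
  refine Finset.sum_eq_zero fun k _ => ?_
  have := congrFun he k
  simp only [Pi.zero_apply] at this
  rw [this, LinearMap.zero_apply]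

end Cyclic

section Hom

variable {B : Type*} [Ring B] {L W : Type*} [AddCommGroup L] [Module B L] [AddCommGroup W]
  [Module B W] {E : Type*} [Field E] [Module E L] [SMulCommClass E B L]

/-- Precomposition turns `L →ₗ[B] W` into a vector space over a field of `B`-endomorphisms. -/
@[reducible] def precompModule : Module E (L →ₗ[B] W) where
  smul e φ := φ.comp (DistribSMul.toLinearMap B L e)
  one_smul φ := LinearMap.ext fun y => congrArg φ (one_smul E y)
  mul_smul a b φ := LinearMap.ext fun y => congrArg φ (show (a * b) • y = b • a • y by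
    rw [mul_comm, mul_smul])
  smul_zero e := LinearMap.ext fun _ => rfl
  smul_add e φ ψ := LinearMap.ext fun _ => rfl
  add_smul a b φ := LinearMap.ext fun y => by
    show φ ((a + b) • y) = φ (a • y) + φ (b • y)
    rw [add_smul, map_add]
  zero_smul φ := LinearMap.ext fun y => by
    show φ ((0 : E) • y) = 0
    rw [zero_smul, map_zero]

variable [Finite E] [IsSimpleModule B L] [Finite L] [Finite W]

/-- The key lemma: an automorphism of prime order of `W` which fixes every vector whose image
lies in the cyclic submodule of that vector, fixes the image of `L` in `W`. -/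
theorem fix_hom (hE : ∀ f : Module.End B L, ∃ e : E, ∀ y, f y = e • y)
    (h2 : ∀ x : W, x + x = 0) (g : W →ₗ[B] W) {r : ℕ} (hr : r.Prime)
    (hgr : ∀ x, g^[r] x = x)
    (hd : 2 ≤ Module.finrank E L)
    (hj : r ≠ 2 → ∃ j : ℕ, 0 < j ∧ j ≤ Module.finrank E L ∧ r ∣ Nat.card E ^ j - 1)
    (hrule : ∀ u : W, g u ∈ Submodule.span B {u} → g u = u)
    (φ : L →ₗ[B] W) (y : L) : g (φ y) = φ y := by
  classical
  letI : Module E (L →ₗ[B] W) := precompModule
  haveI : Finite (L →ₗ[B] W) := Finite.of_injective _ DFunLike.coe_injective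
  let G : Module.End E (L →ₗ[B] W) :=
    { toFun := fun ψ => g.comp ψ
      map_add' := fun a b => LinearMap.comp_add a b g
      map_smul' := fun c a => LinearMap.ext fun _ => rfl }
  have hGpow : ∀ (n : ℕ) (ψ : L →ₗ[B] W) (z : L), (G ^ n) ψ z = g^[n] (ψ z) := by
    intro n
    induction n with
    | zero => intro ψ z; rfl
    | succ k ih =>
      intro ψ z
      rw [pow_succ', Module.End.mul_apply, Function.iterate_succ_apply', ← ih]
      rfl
  have hG : G = 1 := by
    refine eq_one_of_small_fixed (fun ψ => LinearMap.ext fun z => h2 _) G hr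
      (LinearMap.ext fun ψ => LinearMap.ext fun z => ?_) hd hj ?_
    · rw [hGpow, hgr]; rfl
    intro S hS hdim ψ hψ
    obtain ⟨b, hb⟩ : ∃ b : Fin (Module.finrank E S) → S, Submodule.span E (Set.range b) = ⊤ :=
      ⟨Module.finBasis E S, (Module.finBasis E S).span_eq⟩
    obtain ⟨v, hv⟩ := exists_linearIndependent_of_le_finrank hdim
    let Φ : (Fin (Module.finrank E S) → L) →ₗ[B] W :=
      ∑ i, ((b i : L →ₗ[B] W).comp (LinearMap.proj i))
    have hspan : Submodule.span B {v} = ⊤ := by
      refine span_singleton_eq_top_of_independent v fun e he => funext fun i => ?_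
      choose c hc using fun i => hE (e i)
      have hci := Fintype.linearIndependent_iff.1 hv c (by rw [← he]; simp [hc]) i
      exact LinearMap.ext fun z => by rw [hc, hci, zero_smul, Pi.zero_apply, LinearMap.zero_apply]
    have hin : ∀ (ψ : L →ₗ[B] W), ψ ∈ S → ∀ z, ψ z ∈ Submodule.span B {Φ v} := by
      intro ψ hψ z
      have hmem : ∀ (i) (z : L), (b i : L →ₗ[B] W) z ∈ Submodule.span B {Φ v} := by
        intro i z
        have h1 : Φ (Pi.single i z) ∈ (Submodule.span B {v}).map Φ :=
          Submodule.mem_map_of_mem (hspan ▸ Submodule.mem_top)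
        rw [Submodule.map_span, Set.image_singleton] at h1
        convert h1 using 1
        simp only [Φ, LinearMap.sum_apply, LinearMap.comp_apply, LinearMap.proj_apply]
        rw [Finset.sum_eq_single i (fun k _ hk => by rw [Pi.single_eq_of_ne hk, map_zero])
          (fun h => absurd (Finset.mem_univ i) h), Pi.single_eq_same]
      have hψ' : (⟨ψ, hψ⟩ : S) ∈ Submodule.span E (Set.range b) := hb ▸ Submodule.mem_top
      have key : ∀ σ : S, σ ∈ Submodule.span E (Set.range b) →
          ∀ z, (σ : L →ₗ[B] W) z ∈ Submodule.span B {Φ v} := by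
        intro σ hσ
        induction hσ using Submodule.span_induction with
        | mem σ hσ =>
          obtain ⟨i, rfl⟩ := hσ
          exact hmem i
        | zero => intro z; simp
        | add a c _ _ ha hc => intro z; exact add_mem (ha z) (hc z)
        | smul c a _ ha => intro z; exact ha (c • z)
      exact key _ hψ' z
    have hgu : g (Φ v) ∈ Submodule.span B {Φ v} := by
      simp only [Φ, LinearMap.sum_apply, map_sum]
      rw [show Φ v = (∑ i, ((b i : L →ₗ[B] W).comp (LinearMap.proj i))) v from rfl] at hin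
      simp only [LinearMap.sum_apply] at hin
      exact Submodule.sum_mem _ fun i _ => hin (G (b i)) (hS (b i) (b i).2) (v i)
    have hfixu := hrule _ hgu
    have hfixall : ∀ x ∈ Submodule.span B {Φ v}, g x = x := by
      intro x hx
      obtain ⟨c, rfl⟩ := Submodule.mem_span_singleton.1 hx
      rw [map_smul, hfixu]
    exact LinearMap.ext fun z => hfixall _ (hin ψ hψ z)
  exact congrArg (fun T : Module.End E (L →ₗ[B] W) => T φ y) hG

end Hom

end CfsgLib.OddCons.ExtremelyPrimitive
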