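import Mathlib
import Cfsg.Agent.OddCons.Basic
import Cfsg.Agent.MinNormal.Structure
import Cfsg.Agent.Frobenius.Linear

/-!
# The minimal normal subgroup of an irreducible group with maximal vector stabilisers
-/

set_option autoImplicit false

namespace CfsgLib.OddCons.ExtremelyPrimitive

universe u

variable (H : Type u) [Group H] (V : Type*) [AddCommGroup V] [DistribMulAction H V]

/-- An irreducible faithful action in characteristic two all of whose vector stabilisers are
maximal. -/
structure Setting : Prop where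
  two : ∀ v : V, v + v = 0
  nontriv : Nontrivial V
  faithful : ∀ h : H, (∀ v : V, h • v = v) → h = 1
  irred : ∀ W : AddSubgroup V, (∀ h : H, ∀ w ∈ W, h • w ∈ W) → W = ⊥ ∨ W = ⊤
  coatom : ∀ v : V, v ≠ 0 → IsCoatom (MulAction.stabilizer H v)

variable {H V}

/-- The fixed vectors of a set of operators. -/
def fixedVec (M : Set H) : AddSubgroup V where
  carrier := {v | ∀ m ∈ M, m • v = v}
  zero_mem' := fun m _ => smul_zero m
  add_mem' := fun ha hb m hm => by rw [smul_add, ha m hm, hb m hm]
  neg_mem' := fun ha m hm => by rw [smul_neg, ha m hm]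

theorem mem_fixedVec {M : Set H} {v : V} : v ∈ fixedVec M ↔ ∀ m ∈ M, m • v = v := Iff.rfl

theorem exists_fixed_of_sq_eq_one [Nontrivial V] (h2 : ∀ v : V, v + v = 0) {t : H}
    (ht : t * t = 1) : ∃ v : V, v ≠ 0 ∧ t • v = v := by
  obtain ⟨v, hv⟩ := exists_ne (0 : V)
  by_cases h : t • v = v
  · exact ⟨v, hv, h⟩
  refine ⟨v + t • v, fun e => h ?_, by rw [smul_add, smul_smul, ht, one_smul, add_comm]⟩
  rw [eq_neg_of_add_eq_zero_right e]
  exact neg_eq_of_add_eq_zero_left (h2 v)

variable (hS : Setting H V)
include hS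

theorem not_le_stabilizer {M : Subgroup H} (hM : M.Normal) (hM1 : M ≠ ⊥) {v : V} (hv : v ≠ 0) :
    ¬ M ≤ MulAction.stabilizer H v := by
  intro hle
  rcases hS.irred (fixedVec (M : Set H)) (fun h w hw m hm => by
    have := hw (h⁻¹ * m * h) (by simpa using hM.conj_mem m hm h⁻¹)
    rwa [mul_smul, mul_smul, inv_smul_eq_iff] at this) with h | h
  · exact hv ((AddSubgroup.eq_bot_iff_forall _).1 h v fun m hm =>
      MulAction.mem_stabilizer_iff.1 (hle hm))
  · refine hM1 ((Subgroup.eq_bot_iff_forall _).2 fun m hm => hS.faithful m fun w => ?_)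
    exact (h ▸ AddSubgroup.mem_top w : w ∈ fixedVec (M : Set H)) m hm

theorem stabilizer_sup_eq_top {M : Subgroup H} (hM : M.Normal) (hM1 : M ≠ ⊥) {v : V}
    (hv : v ≠ 0) : MulAction.stabilizer H v ⊔ M = ⊤ :=
  (hS.coatom v hv).2 _ (lt_of_le_of_ne le_sup_left fun e =>
    not_le_stabilizer hS hM hM1 hv (e ▸ le_sup_right))

/-- A subgroup of a vector stabiliser normalised by that stabiliser and by a nontrivial normal
subgroup is trivial. -/
theorem eq_bot_of_normalized {M P : Subgroup H} (hM : M.Normal) (hM1 : M ≠ ⊥) {v : V} (hv : v ≠ 0)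
    (hP : P ≤ MulAction.stabilizer H v)
    (h1 : MulAction.stabilizer H v ≤ Subgroup.normalizer (P : Set H))
    (h2 : M ≤ Subgroup.normalizer (P : Set H)) : P = ⊥ := by
  by_contra hP1
  refine not_le_stabilizer hS (Subgroup.normalizer_eq_top_iff.1 (top_le_iff.1 ?_)) hP1 hv hP
  rw [← stabilizer_sup_eq_top hS hM hM1 hv]
  exact sup_le h1 h2

/-- A normal subgroup with nontrivial centraliser acts freely. -/
theorem free_of_commute {M N : Subgroup H} (hM : M.Normal) (hM1 : M ≠ ⊥) (hN : N.Normal)
    (hc : ∀ m ∈ M, ∀ n ∈ N, m * n = n * m) {v : V} (hv : v ≠ 0) {n : H} (hn : n ∈ N)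
    (hfix : n • v = v) : n = 1 := by
  refine (Subgroup.eq_bot_iff_forall _).1 (eq_bot_of_normalized hS
    (P := N ⊓ MulAction.stabilizer H v) hM hM1 hv inf_le_right ?_ ?_) n ⟨hn, hfix⟩
  · intro k hk
    rw [Subgroup.mem_normalizer_iff]
    intro x
    refine and_congr ⟨fun h => hN.conj_mem x h k, fun h => by
      simpa [mul_assoc] using hN.conj_mem _ h k⁻¹⟩ ?_
    exact ((Subgroup.mem_normalizer_iff.1 (Subgroup.le_normalizer hk)) x)
  · refine fun m hm => ?_
    rw [Subgroup.mem_normalizer_iff]
    intro x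
    constructor
    · intro hx
      rwa [hc m hm x hx.1, mul_inv_cancel_right]
    · intro hx
      have e : x = m * x * m⁻¹ := by
        have := hc m hm _ hx.1
        have h3 : m * (m * x * m⁻¹) * m⁻¹ = m * x * m⁻¹ := by rw [this, mul_inv_cancel_right]
        exact (mul_left_cancel (mul_right_cancel h3)).symm
      rwa [e]

variable [Finite H]

theorem odd_card_of_free {N : Subgroup H}
    (hfree : ∀ v : V, v ≠ 0 → ∀ n ∈ N, n • v = v → n = 1) : Odd (Nat.card N) := by
  rcases Nat.even_or_odd (Nat.card N) with h | h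
  · exfalso
    haveI : Fact (Nat.Prime 2) := ⟨Nat.prime_two⟩
    haveI := hS.nontriv
    obtain ⟨n, hn⟩ := exists_prime_orderOf_dvd_card' (G := N) 2 h.two_dvd
    have hn2 : (n : H) * n = 1 := by
      have := congrArg Subtype.val (pow_orderOf_eq_one n)
      rw [hn, pow_two] at this
      exact this
    obtain ⟨v, hv, hfix⟩ := exists_fixed_of_sq_eq_one (V := V) hS.two hn2
    have h1 : n = 1 := Subtype.ext (hfree v hv n n.2 hfix)
    rw [h1, orderOf_one] at hn
    omega
  · exact h

/-- A group with an abelian minimal normal subgroup is solvable. -/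
theorem isSolvable_of_abelian_minimal {N : Subgroup H} (hN : CfsgLib.MinNormal.IsMinNormal N)
    (hab : IsMulCommutative N) : Group.IsSolvable H := by
  haveI := hN.normal
  haveI := hS.nontriv
  haveI := hab
  have hc : ∀ m ∈ N, ∀ n ∈ N, m * n = n * m := fun m hm n hn =>
    congrArg Subtype.val (hab.is_comm.comm ⟨m, hm⟩ ⟨n, hn⟩)
  letI : Module (ZMod 2) V := AddCommGroup.zmodModule fun x => by rw [two_nsmul, hS.two]
  let ρ : Representation (ZMod 2) N V :=
    { toFun := fun n => (DistribSMul.toAddMonoidHom V (n : H)).toZModLinearMap 2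
      map_one' := LinearMap.ext fun v => by simp
      map_mul' := fun a b => LinearMap.ext fun v => by simp [mul_smul] }
  haveI : IsCyclic N := CfsgLib.Frobenius.Linear.isCyclic_of_comm (ρ := ρ)
    (fun n hn v hv => by
      by_contra hv0
      exact hn (Subtype.ext (free_of_commute hS hN.normal hN.ne_bot hN.normal hc hv0 n.2 hv)))
    (fun a b => hab.is_comm.comm a b)
  obtain ⟨v, hv⟩ := exists_ne (0 : V)
  set K := MulAction.stabilizer H v with hK
  let f : K →* MulAut N := (MulAut.conjNormal (H := N)).comp K.subtype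
  have hf : Function.Injective f := by
    rw [← MonoidHom.ker_eq_bot_iff, Subgroup.eq_bot_iff_forall]
    intro k hk
    apply Subtype.ext
    refine free_of_commute hS hN.normal hN.ne_bot (N := Subgroup.centralizer (N : Set H))
      Subgroup.normal_centralizer ?_ hv ?_ k.2
    · exact fun m hm n hn => Subgroup.mem_centralizer_iff.1 hn m hm
    · rw [Subgroup.mem_centralizer_iff]
      intro m hm
      have := congrArg Subtype.val (MulEquiv.congr_fun (MonoidHom.mem_ker.1 hk) ⟨m, hm⟩)
      simp [f] at this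
      exact (mul_inv_eq_iff_eq_mul.1 this).symm
  have hKs : Group.IsSolvable K := by
    haveI : Group.IsSolvable (MulAut N) := Group.isSolvable_of_comm fun a b =>
      (IsCyclic.mulAutMulEquiv N).injective (by rw [map_mul, map_mul, mul_comm])
    exact Group.isSolvable_of_isSolvable_injective hf
  haveI := hKs
  refine Basic.isSolvable_of_normal N
    (Group.isSolvable_of_comm fun a b => hab.is_comm.comm a b) ?_
  refine Group.isSolvable_of_surjective (f := (QuotientGroup.mk' N).comp K.subtype) fun q => ?_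
  obtain ⟨x, rfl⟩ := QuotientGroup.mk'_surjective N q
  have hx : x ∈ K ⊔ N := by
    rw [stabilizer_sup_eq_top hS hN.normal hN.ne_bot hv]
    exact Subgroup.mem_top x
  obtain ⟨k, hk, n, hn, rfl⟩ := Subgroup.mem_sup_of_normal_right.1 hx
  refine ⟨⟨k, hk⟩, ?_⟩
  simp [(QuotientGroup.eq_one_iff n).2 hn]

/-- An insoluble such group has a self-centralising nonabelian minimal normal subgroup. -/
theorem exists_minimal_centralizer_eq_bot (hFT : CfsgLib.OddStep.P0205.{u})
    (hsol : ¬ Group.IsSolvable H) :
    ∃ N : Subgroup H, CfsgLib.MinNormal.IsMinNormal N ∧ ¬ IsMulCommutative N ∧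
      Subgroup.centralizer (N : Set H) = ⊥ := by
  haveI : Nontrivial H := by
    by_contra h
    rw [not_nontrivial_iff_subsingleton] at h
    exact hsol inferInstance
  obtain ⟨N, hN⟩ := CfsgLib.MinNormal.exists_isMinNormal (G := H)
  haveI := hN.normal
  have hna : ¬ IsMulCommutative N := fun h => hsol (isSolvable_of_abelian_minimal hS hN h)
  refine ⟨N, hN, hna, ?_⟩
  by_contra hC
  refine hna (hN.isMulCommutative_of_isSolvable (hFT (odd_card_of_free hS fun v hv n hn h =>
    free_of_commute hS (M := Subgroup.centralizer (N : Set H)) Subgroup.normal_centralizer hC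
      hN.normal (fun m hm x hx => (Subgroup.mem_centralizer_iff.1 hm x hx).symm) hv hn h)))

end CfsgLib.OddCons.ExtremelyPrimitive
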