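import Mathlib
import Cfsg.Agent.OddCons.ExtremelyPrimitive.Socle

/-!
# Restricting an irreducible module to subnormal subgroups
-/

set_option autoImplicit false

namespace CfsgLib.OddCons.ExtremelyPrimitive

universe u

variable {H : Type u} [Group H] {V : Type*} [AddCommGroup V] [DistribMulAction H V]

/-- `W` is invariant under the operators in `M`. -/
def Inv (M : Subgroup H) (W : AddSubgroup V) : Prop := ∀ m ∈ M, ∀ w ∈ W, m • w ∈ W

/-- The minimal invariant subgroups. -/
def minInv (M : Subgroup H) : Set (AddSubgroup V) :=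
  {W | Minimal (fun W => Inv M W ∧ W ≠ ⊥) W}

/-- The translate of a subgroup by an operator. -/
def translate (h : H) (W : AddSubgroup V) : AddSubgroup V :=
  W.map (DistribSMul.toAddMonoidHom V h)

theorem mem_translate {h : H} {W : AddSubgroup V} {v : V} : v ∈ translate h W ↔ h⁻¹ • v ∈ W := by
  constructor
  · rintro ⟨w, hw, rfl⟩
    simpa using hw
  · intro hv
    exact ⟨_, hv, by simp⟩

theorem translate_translate (h : H) (W : AddSubgroup V) : translate h⁻¹ (translate h W) = W := by
  ext v
  simp [mem_translate]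

theorem translate_mono (h : H) {W W' : AddSubgroup V} (hle : W ≤ W') :
    translate h W ≤ translate h W' := AddSubgroup.map_mono hle

theorem inv_translate {M : Subgroup H} {h : H} (hh : h ∈ Subgroup.normalizer (M : Set H))
    {W : AddSubgroup V} (hW : Inv M W) : Inv M (translate h W) := by
  intro m hm w hw
  rw [mem_translate] at hw ⊢
  have h1 := hW _ (((Subgroup.mem_normalizer_iff'.1 hh) (h⁻¹ * m)).2 (by simpa using hm)) _ hw
  simpa [mul_smul] using h1

theorem translate_mem_minInv {M : Subgroup H} {h : H} (hh : h ∈ Subgroup.normalizer (M : Set H))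
    {W : AddSubgroup V} (hW : W ∈ minInv M) : translate h W ∈ minInv M := by
  refine ⟨⟨inv_translate hh hW.1.1, fun e => hW.1.2 ?_⟩, fun W' hW' hle => ?_⟩
  · rw [← translate_translate h W, e, translate, AddSubgroup.map_bot]
  · have h1 : translate h⁻¹ W' ≤ W := translate_translate h W ▸ translate_mono h⁻¹ hle
    have h2 : W ≤ translate h⁻¹ W' := by
      refine hW.2 ⟨inv_translate (inv_mem hh) hW'.1, fun e => hW'.2 ?_⟩ h1
      rw [← translate_translate h⁻¹ W', e, translate, AddSubgroup.map_bot]
    have h3 := translate_mono h h2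
    rwa [show translate h (translate h⁻¹ W') = W' by simpa using translate_translate h⁻¹ W'] at h3

theorem sSup_minInv_translate {M : Subgroup H} {h : H}
    (hh : h ∈ Subgroup.normalizer (M : Set H)) {v : V}
    (hv : v ∈ sSup (minInv M : Set (AddSubgroup V))) : h • v ∈ sSup (minInv M : Set (AddSubgroup V)) := by
  have : translate h (sSup (minInv M : Set (AddSubgroup V))) ≤ sSup (minInv M) := by
    rw [translate, AddSubgroup.map_le_iff_le_comap]
    refine sSup_le fun W hW => ?_
    rw [← AddSubgroup.map_le_iff_le_comap]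
    exact le_sSup (translate_mem_minInv hh hW)
  exact this ⟨v, hv, rfl⟩

theorem exists_minInv_le [Finite V] {M : Subgroup H} {W : AddSubgroup V} (hW : Inv M W)
    (hW1 : W ≠ ⊥) : ∃ W' ∈ (minInv M : Set (AddSubgroup V)), W' ≤ W := by
  haveI : Finite (AddSubgroup V) :=
    Finite.of_injective _ (SetLike.coe_injective (A := AddSubgroup V))
  obtain ⟨W', hle, hmin⟩ := Finite.exists_le_minimal
    (p := fun W : AddSubgroup V => Inv M W ∧ W ≠ ⊥) ⟨hW, hW1⟩
  exact ⟨W', hmin, hle⟩

/-- An irreducible module is semisimple for a normal subgroup of a normal subgroup. -/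
theorem sSup_minInv_eq_top [Finite V] (hS : Setting H V) {N M : Subgroup H} (hN : N.Normal)
    (hM : N ≤ Subgroup.normalizer (M : Set H)) (hMN : M ≤ N) :
    sSup (minInv M : Set (AddSubgroup V)) = ⊤ := by
  haveI := hS.nontriv
  have hN1 : sSup (minInv N : Set (AddSubgroup V)) = ⊤ := by
    refine (hS.irred _ fun h w hw => sSup_minInv_translate ?_ hw).resolve_left fun e => ?_
    · rw [Subgroup.normalizer_eq_top_iff.2 hN]; exact Subgroup.mem_top h
    · obtain ⟨W, hW, -⟩ := exists_minInv_le (M := N) (W := (⊤ : AddSubgroup V))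
        (fun _ _ _ _ => AddSubgroup.mem_top _) top_ne_bot
      exact hW.1.2 (le_bot_iff.1 (e ▸ le_sSup hW))
  rw [eq_top_iff, ← hN1]
  refine sSup_le fun W hW => ?_
  obtain ⟨L, hL, hLW⟩ := exists_minInv_le (M := M)
    (fun m hm w hw => hW.1.1 m (hMN hm) w hw) hW.1.2
  refine le_trans (hW.2 (y := W ⊓ sSup (minInv M)) ⟨?_, ?_⟩ inf_le_left) inf_le_right
  · intro n hn w hw
    exact ⟨hW.1.1 n hn w hw.1, sSup_minInv_translate (hM hn) hw.2⟩
  · exact fun e => hL.1.2 (le_bot_iff.1 (e ▸ le_inf hLW (le_sSup hL)))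

end CfsgLib.OddCons.ExtremelyPrimitive
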