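import Mathlib
import Cfsg.Agent.OddCons.ExtremelyPrimitive.Linear
import Cfsg.Agent.OddCons.ExtremelyPrimitive.Semisimple
import Cfsg.Agent.MinNormal.Structure
import Cfsg.Agent.Chars.Apps.FrobeniusKernel

/-!
# There is only one simple factor
-/

set_option autoImplicit false

open CfsgLib.MinNormal Pointwise

namespace CfsgLib.OddCons.ExtremelyPrimitive

universe u

variable {H : Type u} [Group H] [Finite H] {V : Type*} [AddCommGroup V] [DistribMulAction H V]

/-- The endomorphisms of a finite simple module form a field. -/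
theorem exists_end_field.{w, v} {B : Type w} [Ring B] {L : Type v} [AddCommGroup L] [Module B L]
    [IsSimpleModule B L] [Finite L] :
    ∃ (E : Type v) (_ : Field E) (_ : Module E L) (_ : SMulCommClass E B L) (_ : Finite E),
      ∀ f : Module.End B L, ∃ e : E, ∀ y, f y = e • y := by
  classical
  haveI hfin : Finite (Module.End B L) := Finite.of_injective _ DFunLike.coe_injective
  let dr : DivisionRing (Module.End B L) := Module.End.instDivisionRing
  let fld : Field (Module.End B L) := @littleWedderburn _ dr hfin
  let md : @Module (Module.End B L) L fld.toSemiring _ :=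
    { (Module.End.applyModule : Module (Module.End B L) L) with }
  exact ⟨Module.End B L, fld, md, ⟨fun e b y => e.map_smul b y⟩, hfin, fun f => ⟨f, fun y => rfl⟩⟩

/-- The data: a simple factor `T` of a minimal normal subgroup `N`, the product `T'` of the other
factors and one other factor `S₀`. -/
structure Data (N T T' S₀ : Subgroup H) (s : Finset (Subgroup H)) : Prop where
  setting : Setting H V
  normal : N.Normal
  ne_bot : N ≠ ⊥
  factors : IsFactors N s
  mem : T ∈ s
  mem₀ : S₀ ∈ s
  ne₀ : S₀ ≠ T
  le₀ : S₀ ≤ T'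
  le' : T' ≤ N
  normalized : N ≤ Subgroup.normalizer (T' : Set H)
  comm : ∀ x ∈ T, ∀ y ∈ T', x * y = y * x

variable {N T T' S₀ : Subgroup H} {s : Finset (Subgroup H)}
  (D : Data (V := V) N T T' S₀ s)
include D

/-- No simple factor fixes a nonzero vector. -/
theorem factor_fixed_eq_zero {S : Subgroup H} (hS : S ∈ s) {v : V} (hfix : ∀ x ∈ S, x • v = v) :
    v = 0 := by
  by_contra hv
  refine not_le_stabilizer D.setting D.normal D.ne_bot hv ?_
  rw [← D.factors.sup_eq]
  refine Finset.sup_le fun S' hS' => ?_
  obtain ⟨g, rfl⟩ := D.factors.conj S hS S' hS'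
  have hg : g ∈ MulAction.stabilizer H v ⊔ N := by
    rw [stabilizer_sup_eq_top D.setting D.normal D.ne_bot hv]; exact Subgroup.mem_top g
  haveI := D.normal
  obtain ⟨k, hk, n, hn, rfl⟩ := Subgroup.mem_sup_of_normal_right.1 hg
  rintro _ ⟨x, hx, rfl⟩
  have h1 := hfix _ ((Subgroup.mem_normalizer_iff.1 (D.factors.normalized S hS hn) x).1 hx)
  have hkv : k • v = v := hk
  rw [MulAction.mem_stabilizer_iff]
  show (k * n * x * (k * n)⁻¹) • v = v
  rw [show k * n * x * (k * n)⁻¹ = k * (n * x * n⁻¹) * k⁻¹ by group, mul_smul, mul_smul,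
    inv_smul_eq_iff.2 hkv.symm, h1, hkv]

/-- A nontrivial factor stabiliser is self-normalising in the factor. -/
theorem self_normalizing {v : V} (hv : v ≠ 0) {t : H} (ht : t ∈ T) (ht1 : t ≠ 1)
    (htv : t • v = v) {g : H} (hg : g ∈ T)
    (hnorm : ∀ x ∈ T, x • v = v → (g⁻¹ * x * g) • v = v) : g • v = v := by
  classical
  set K := MulAction.stabilizer H v with hK
  set P : Subgroup H := s.sup (fun S => S ⊓ K) with hP
  have hPK : P ≤ K := Finset.sup_le fun S _ => inf_le_right
  have hmapP : ∀ k : H, (∀ S ∈ s, (S ⊓ K).map (MulAut.conj k).toMonoidHom ≤ P) →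
      k ∈ Subgroup.normalizer (P : Set H) := by
    intro k hk
    have hle : P.map (MulAut.conj k).toMonoidHom ≤ P := by
      rw [Subgroup.map_le_iff_le_comap]
      exact Finset.sup_le fun S hS => Subgroup.map_le_iff_le_comap.1 (hk S hS)
    rw [Subgroup.mem_normalizer_iff]
    intro x
    refine ⟨fun hx => hle ⟨x, hx, rfl⟩, fun hx => ?_⟩
    have heq : P.map (MulAut.conj k).toMonoidHom = P := Subgroup.eq_of_le_of_card_ge hle
      (by rw [Subgroup.card_map_of_injective (MulAut.conj k).injective])
    obtain ⟨y, hy, hyx⟩ := heq.ge hx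
    have : y = x := (MulAut.conj k).injective hyx
    exact this ▸ hy
  have hKN : K ≤ Subgroup.normalizer (P : Set H) := by
    intro k hk
    refine hmapP k fun S hS => ?_
    refine le_trans ?_ (Finset.le_sup (f := fun S => S ⊓ K) (D.factors.conj_mem S hS k))
    rintro _ ⟨x, hx, rfl⟩
    exact ⟨⟨x, hx.1, rfl⟩, K.mul_mem (K.mul_mem hk hx.2) (K.inv_mem hk)⟩
  have hP1 : P ≠ ⊥ := fun e => ht1
    ((Subgroup.eq_bot_iff_forall _).1 e t (Finset.le_sup (f := fun S => S ⊓ K) D.mem ⟨ht, htv⟩))
  have heq : Subgroup.normalizer (P : Set H) = K := by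
    by_contra hne
    have htop := (D.setting.coatom v hv).2 _ (lt_of_le_of_ne hKN (Ne.symm hne))
    exact not_le_stabilizer D.setting (Subgroup.normalizer_eq_top_iff.1 htop) hP1 hv hPK
  have hginv : g⁻¹ ∈ Subgroup.normalizer (P : Set H) := by
    refine hmapP g⁻¹ fun S hS => le_trans ?_ (Finset.le_sup (f := fun S => S ⊓ K) hS)
    rintro _ ⟨x, hx, rfl⟩
    show g⁻¹ * x * g⁻¹⁻¹ ∈ S ⊓ K
    rw [inv_inv]
    by_cases hST : S = T
    · subst hST
      exact ⟨S.mul_mem (S.mul_mem (S.inv_mem hg) hx.1) hg, hnorm x hx.1 hx.2⟩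
    · have hc : Commute x g := D.factors.commute S hS T D.mem hST x hx.1 g hg
      rw [mul_assoc, hc.eq, inv_mul_cancel_left]
      exact hx
  rw [heq] at hginv
  have h1 : g⁻¹ ∈ K := hginv
  simpa [hK, MulAction.mem_stabilizer_iff] using K.inv_mem h1

/-- An element of `T` stabilising a `T'`-invariant subgroup which is fixed pointwise by some
nontrivial element of `T` fixes it pointwise. -/
theorem fixes_of_invariant [Finite V] {W : AddSubgroup V} (hW : Inv T' W) {t : H} (ht : t ∈ T)
    (ht1 : t ≠ 1) (htW : ∀ w ∈ W, t • w = w) :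
    ∀ g ∈ T, (∀ w ∈ W, g • w ∈ W) → ∀ w ∈ W, g • w = w := by
  classical
  suffices h : ∀ n : ℕ, ∀ g ∈ T, orderOf g ≤ n → (∀ w ∈ W, g • w ∈ W) → ∀ w ∈ W, g • w = w from
    fun g hg => h _ g hg le_rfl
  intro n
  induction n with
  | zero =>
    intro g _ hn
    have := orderOf_pos g
    omega
  | succ n ih =>
    intro g hg hn hgW
    by_cases hg1 : g = 1
    · subst hg1; simp
    set r := (orderOf g).minFac with hr_def
    have hrp : r.Prime := Nat.minFac_prime (fun e => hg1 (orderOf_eq_one_iff.1 e))
    have hrd : r ∣ orderOf g := Nat.minFac_dvd _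
    have hpowW : ∀ k : ℕ, ∀ w ∈ W, g ^ k • w ∈ W := by
      intro k
      induction k with
      | zero => simp
      | succ k ihk =>
        intro w hw
        rw [pow_succ, mul_smul]
        exact ihk _ (hgW w hw)
    have hgr : ∀ w ∈ W, g ^ r • w = w := by
      refine ih (g ^ r) (T.pow_mem hg r) ?_ (hpowW r)
      rw [orderOf_pow' g hrp.ne_zero, Nat.gcd_eq_right hrd]
      have := Nat.div_lt_self (orderOf_pos g) hrp.one_lt
      omega
    -- the algebra generated by `T'`
    let B : Subring (AddMonoid.End V) :=
      Subring.closure {f | ∃ m ∈ T', f = DistribSMul.toAddMonoidHom V m}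
    have hBcomm : ∀ x ∈ T, ∀ b : B, ∀ v : V, x • (b • v) = b • (x • v) := by
      intro x hx b
      obtain ⟨f, hf⟩ := b
      show ∀ v : V, x • f v = f (x • v)
      induction hf using Subring.closure_induction with
      | mem f hf =>
        obtain ⟨m, hm, rfl⟩ := hf
        intro v
        show x • (m • v) = m • (x • v)
        rw [smul_smul, smul_smul, D.comm x hx m hm]
      | zero => intro v; exact smul_zero x
      | one => intro v; rfl
      | add a b _ _ ha hb =>
        intro v
        show x • (a v + b v) = a (x • v) + b (x • v)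
        rw [smul_add, ha, hb]
      | neg a _ ha =>
        intro v
        show x • (-(a v)) = -(a (x • v))
        rw [smul_neg, ha]
      | mul a b _ _ ha hb =>
        intro v
        show x • a (b v) = a (b (x • v))
        rw [ha, hb]
    have hBmem : ∀ (U : AddSubgroup V), Inv T' U → ∀ b : B, ∀ v ∈ U, b • v ∈ U := by
      intro U hU b
      obtain ⟨f, hf⟩ := b
      show ∀ v ∈ U, f v ∈ U
      induction hf using Subring.closure_induction with
      | mem f hf =>
        obtain ⟨m, hm, rfl⟩ := hf
        exact hU m hm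
      | zero => intro v _; exact U.zero_mem
      | one => intro v hv; exact hv
      | add a b _ _ ha hb => intro v hv; exact U.add_mem (ha v hv) (hb v hv)
      | neg a _ ha => intro v hv; exact U.neg_mem (ha v hv)
      | mul a b _ _ ha hb => intro v hv; exact ha _ (hb v hv)
    let op : ∀ m, m ∈ T' → B := fun m hm =>
      ⟨DistribSMul.toAddMonoidHom V m, Subring.subset_closure ⟨m, hm, rfl⟩⟩
    have hsub : ∀ U : Submodule B V, Inv T' U.toAddSubgroup := fun U m hm v hv =>
      U.smul_mem (op m hm) hv
    let mk' : ∀ U : AddSubgroup V, Inv T' U → Submodule B V := fun U hU =>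
      { U with smul_mem' := fun b v hv => hBmem U hU b v hv }
    haveI hVss : IsSemisimpleModule B V := by
      refine IsSemisimpleModule.of_sSup_simples_eq_top ?_
      rw [eq_top_iff]
      intro v _
      have hv : v ∈ sSup (minInv T' : Set (AddSubgroup V)) := by
        rw [sSup_minInv_eq_top D.setting D.normal D.normalized D.le']
        exact AddSubgroup.mem_top v
      refine (sSup_le (fun L hL => ?_) :
        sSup (minInv T' : Set (AddSubgroup V)) ≤
          (sSup {U : Submodule B V | IsSimpleModule B U}).toAddSubgroup) hv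
      let L' := mk' L hL.1.1
      have hsimple : IsSimpleModule B L' := by
        rw [isSimpleModule_iff_isAtom]
        refine ⟨fun e => hL.1.2 (by simpa [L', mk', ← Submodule.toAddSubgroup_inj] using e), ?_⟩
        intro U hU
        by_contra hU1
        refine hU.ne (Submodule.toAddSubgroup_injective (le_antisymm hU.le (hL.2 ⟨hsub U, ?_⟩ hU.le)))
        exact fun e => hU1 (Submodule.toAddSubgroup_injective (e.trans Submodule.bot_toAddSubgroup.symm))
      exact fun x hx => (le_sSup hsimple : L' ≤ _) hx
    let WB : Submodule B V := mk' W hW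
    haveI : Finite WB := Subtype.finite
    let gl : WB →ₗ[B] WB :=
      { toFun := fun w => ⟨g • (w : V), hgW _ w.2⟩
        map_add' := fun a b => Subtype.ext (smul_add g (a : V) b)
        map_smul' := fun b a => Subtype.ext (hBcomm g hg b a) }
    have hrule : ∀ u : WB, gl u ∈ Submodule.span B {u} → gl u = u := by
      intro u hu
      by_cases hu0 : (u : V) = 0
      · have : u = 0 := Subtype.ext hu0
        rw [this, map_zero]
      obtain ⟨b, hb⟩ := Submodule.mem_span_singleton.1 hu
      have hgu : g • (u : V) = b • (u : V) := (congrArg Subtype.val hb).symm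
      refine Subtype.ext (self_normalizing D hu0 ht ht1 (htW _ u.2) hg fun x hx hxu => ?_)
      rw [mul_smul, mul_smul, hgu, hBcomm x hx, hxu, ← hgu, inv_smul_smul]
    suffices hL : ∀ L : Submodule B WB, IsSimpleModule B L → ∀ y : L, gl (y : WB) = y by
      intro w hw
      have hmem : (⟨w, hw⟩ : WB) ∈ sSup {L : Submodule B WB | IsSimpleModule B L} := by
        rw [IsSemisimpleModule.sSup_simples_eq_top]; exact Submodule.mem_top
      have hle : sSup {L : Submodule B WB | IsSimpleModule B L} ≤
          LinearMap.eqLocus gl LinearMap.id :=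
        sSup_le fun L hL' x hx => hL L hL' ⟨x, hx⟩
      exact congrArg Subtype.val (hle hmem : gl ⟨w, hw⟩ = ⟨w, hw⟩)
    intro L hLs
    haveI := hLs
    haveI : Finite L := Subtype.finite
    obtain ⟨E, fE, mE, hcom, hfinE, hE⟩ := exists_end_field (B := B) (L := L)
    haveI : Module.Finite E L := Module.Finite.of_finite
    have h2L : ∀ x : L, x + x = 0 := fun x =>
      Subtype.ext (Subtype.ext (D.setting.two _))
    have hS0L : ∀ x ∈ S₀, (∀ y : L, x • ((y : WB) : V) = ((y : WB) : V)) → x = 1 := by
      let K : Subgroup S₀ :=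
        { carrier := {x | ∀ y : L, (x : H) • ((y : WB) : V) = ((y : WB) : V)}
          one_mem' := fun y => one_smul H _
          mul_mem' := fun {a b} ha hb y => by rw [Subgroup.coe_mul, mul_smul, hb y, ha y]
          inv_mem' := fun {a} ha y => by rw [Subgroup.coe_inv, inv_smul_eq_iff, ha y] }
      haveI hKn : K.Normal := ⟨fun x hx z y => by
        have h1 := hx ((op _ (T'.inv_mem (D.le₀ z.2))) • y)
        rw [Subgroup.coe_mul, Subgroup.coe_mul, mul_smul, mul_smul, Subgroup.coe_inv]
        change (x : H) • ((z : H)⁻¹ • ((y : WB) : V)) = (z : H)⁻¹ • ((y : WB) : V) at h1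
        rw [h1, smul_inv_smul]⟩
      haveI := D.factors.simple S₀ D.mem₀
      rcases hKn.eq_bot_or_eq_top with h | h
      · intro x hx hfix
        exact congrArg Subtype.val ((Subgroup.eq_bot_iff_forall _).1 h ⟨x, hx⟩ hfix)
      · exfalso
        haveI := IsSimpleModule.nontrivial B L
        obtain ⟨y, hy⟩ := exists_ne (0 : L)
        apply hy
        have := factor_fixed_eq_zero D D.mem₀ (v := ((y : WB) : V))
          fun x hx => (h ▸ Subgroup.mem_top (⟨x, hx⟩ : S₀) : _ ∈ K) y
        exact Subtype.ext (Subtype.ext this)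
    -- multiplication by elements of `S₀` as semilinear maps
    let act : ∀ x ∈ S₀, Module.End E L := fun x hx =>
      { toFun := fun y => op x (D.le₀ hx) • y
        map_add' := smul_add _
        map_smul' := fun e y => (smul_comm e (op x (D.le₀ hx)) y).symm }
    have hact : ∀ x (hx : x ∈ S₀) (y : L), (((act x hx y : L) : WB) : V) = x • ((y : WB) : V) :=
      fun x hx y => rfl
    have hd : 2 ≤ Module.finrank E L := by
      by_contra hlt
      haveI := IsSimpleModule.nontrivial B L
      have hpos : 0 < Module.finrank E L := Module.finrank_pos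
      obtain ⟨y₀, -, hy₀⟩ := finrank_eq_one_iff'.1 (show Module.finrank E L = 1 by omega)
      refine D.factors.not_comm S₀ D.mem₀ ⟨⟨fun a b => Subtype.ext ?_⟩⟩
      refine (inv_mul_eq_one.1 ?_).symm
      refine hS0L _ (S₀.mul_mem (S₀.inv_mem (S₀.mul_mem b.2 a.2)) (S₀.mul_mem a.2 b.2)) fun y => ?_
      have hcomm : act a a.2 (act b b.2 y) = act b b.2 (act a a.2 y) := by
        obtain ⟨e, rfl⟩ := hy₀ y
        obtain ⟨ea, hea⟩ := hy₀ (act a a.2 y₀)
        obtain ⟨eb, heb⟩ := hy₀ (act b b.2 y₀)
        simp only [map_smul, ← hea, ← heb]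
        rw [smul_comm ea eb]
      have h1 := congrArg (fun z : L => ((z : WB) : V)) hcomm
      simp only [hact] at h1
      show (((b : H) * a)⁻¹ * (a * b)) • _ = _
      rw [mul_smul, inv_smul_eq_iff, mul_smul, mul_smul]
      exact h1
    refine fun y => fix_hom (B := B) (E := E) hE
      (fun x => Subtype.ext (D.setting.two _)) gl hrp (fun x => ?_) hd (fun hr2 => ?_) hrule
      L.subtype y
    · have hpow : ∀ k : ℕ, ((gl^[k] x : WB) : V) = g ^ k • (x : V) := by
        intro k
        induction k with
        | zero => simp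
        | succ k ihk =>
          rw [Function.iterate_succ_apply', pow_succ', mul_smul, ← ihk]
          rfl
      exact Subtype.ext ((hpow r).trans (hgr _ x.2))
    · haveI := Fact.mk hrp
      have hdvd : r ∣ Nat.card S₀ := by
        obtain ⟨z, hz⟩ := D.factors.conj T D.mem S₀ D.mem₀
        rw [← hz, Subgroup.card_map_of_injective (MulAut.conj z).injective]
        exact hrd.trans (Subgroup.orderOf_dvd_natCard T hg)
      obtain ⟨x, hx⟩ := exists_prime_orderOf_dvd_card' r hdvd
      have hx1 : (x : H) ≠ 1 := by
        intro e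
        have : x = 1 := Subtype.ext e
        rw [this, orderOf_one] at hx
        exact hrp.ne_one hx.symm
      refine exists_dvd_card_pow_sub_one h2L (act x x.2) hrp hr2 (LinearMap.ext fun y => ?_) ?_
      · have hpow : ∀ k : ℕ, ((((act x x.2 ^ k) y : L) : WB) : V) = (x : H) ^ k • ((y : WB) : V) := by
          intro k
          induction k with
          | zero => simp
          | succ k ihk => rw [pow_succ', Module.End.mul_apply, hact x x.2, ihk, ← mul_smul, ← pow_succ']
        have hxr : (x : H) ^ r = 1 := by
          have := congrArg Subtype.val (pow_orderOf_eq_one x)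
          rw [hx] at this
          simpa using this
        refine Subtype.ext (Subtype.ext ?_)
        rw [hpow, hxr, one_smul]
        rfl
      · intro e
        refine hx1 (hS0L x x.2 fun y => ?_)
        rw [← hact x x.2, e]
        rfl

end CfsgLib.OddCons.ExtremelyPrimitive
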