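import Mathlib
import Cfsg.Prelude.Def_Solvable
import Cfsg.Agent.OddCons.ExtremelyPrimitive.Factor

/-!
# Irreducible groups in characteristic two with maximal vector stabilisers are almost simple
-/

set_option autoImplicit false

open CfsgLib.MinNormal Pointwise

namespace CfsgLib.OddCons.ExtremelyPrimitive

universe u

variable {H : Type u} [Group H] [Finite H] {V : Type*} [AddCommGroup V] [DistribMulAction H V]
  [Finite V]

theorem inv_fixed {T T' : Subgroup H} (hc : ∀ x ∈ T, ∀ y ∈ T', x * y = y * x) {x : H}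
    (hx : x ∈ T) : Inv T' (fixedVec ({x} : Set H) : AddSubgroup V) := by
  intro m hm w hw y hy
  rw [Set.mem_singleton_iff] at hy
  subst hy
  rw [smul_smul, hc y hx m hm, mul_smul, hw y rfl]

theorem mem_fixed {x : H} {v : V} : v ∈ (fixedVec ({x} : Set H) : AddSubgroup V) ↔ x • v = v :=
  ⟨fun h => h x rfl, fun h y hy => by rw [Set.mem_singleton_iff] at hy; rw [hy, h]⟩

/-- Two factors are impossible. -/
theorem false_of_data (hFT : CfsgLib.OddStep.P0205.{u}) {N T T' S₀ : Subgroup H}
    {s : Finset (Subgroup H)} (D : Data (V := V) N T T' S₀ s) : False := by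
  haveI : Fact (Nat.Prime 2) := ⟨Nat.prime_two⟩
  haveI := D.setting.nontriv
  haveI := D.factors.simple T D.mem
  have hTna := D.factors.not_comm T D.mem
  have h2 := D.setting.two
  -- involutions fix their fixed spaces
  have key : ∀ t ∈ T, t ≠ 1 → ∀ g ∈ T, (∀ v : V, t • v = v → t • g • v = g • v) →
      ∀ v : V, t • v = v → g • v = v := fun t ht ht1 g hg hinv v hv =>
    fixes_of_invariant D (inv_fixed D.comm ht) ht ht1 (fun w hw => mem_fixed.1 hw) g hg
      (fun w hw => mem_fixed.2 (hinv w (mem_fixed.1 hw))) v (mem_fixed.2 hv)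
  have hcommute : ∀ a ∈ T, ∀ b ∈ T, a ≠ 1 → a * b = b * a →
      ∀ v : V, a • v = v → b • v = v := fun a ha b hb ha1 hab =>
    key a ha ha1 b hb fun v hv => by rw [smul_smul, hab, mul_smul, hv]
  -- two involutions with different fixed spaces
  have hpair : ∀ a ∈ T, ∀ b ∈ T, a * a = 1 → b * b = 1 → a ≠ 1 → b ≠ 1 →
      ¬ (∀ v : V, a • v = v ↔ b • v = v) →
      ∀ v : V, ∃ x y : V, a • x = x ∧ b • y = y ∧ x + y = v := by
    intro a ha b hb haa hbb ha1 hb1 hne
    set k := a * b with hk
    have hainv : a⁻¹ = a := inv_eq_of_mul_eq_one_right haa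
    have hbinv : b⁻¹ = b := inv_eq_of_mul_eq_one_right hbb
    have hkinv : k⁻¹ = b * a := by rw [hk, mul_inv_rev, hainv, hbinv]
    have haka : a * k * a = k⁻¹ := by
      rw [hkinv, hk, ← mul_assoc a a b, haa, one_mul]
    have hkT : k ∈ T := T.mul_mem ha hb
    have hk1 : k ≠ 1 := fun e => hne (by
      have : a = b := by
        have h' : a⁻¹ = b := inv_eq_of_mul_eq_one_right (hk ▸ e)
        rwa [hainv] at h'
      intro v; rw [this])
    have hodd : Odd (orderOf k) := by
      rcases Nat.even_or_odd (orderOf k) with ⟨m, hm⟩ | h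
      · exfalso
        have hpos := orderOf_pos k
        set z := k ^ m with hz
        have hzz : z * z = 1 := by rw [hz, ← pow_add, ← hm, pow_orderOf_eq_one]
        have hz1 : z ≠ 1 := pow_ne_one_of_lt_orderOf (by omega) (by omega)
        have hzT : z ∈ T := T.pow_mem hkT m
        have hzinv : z⁻¹ = z := inv_eq_of_mul_eq_one_right hzz
        have haz : a * z = z * a := by
          have : a * z * a⁻¹ = z := by
            rw [hz, ← conj_pow, hainv, haka, inv_pow, ← hz, hzinv]
          exact mul_inv_eq_iff_eq_mul.1 this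
        have hkz : k * z = z * k := by rw [hz, ← pow_succ', ← pow_succ]
        have hb' : b = a * k := by rw [hk, ← mul_assoc, haa, one_mul]
        have hbz : b * z = z * b := by
          rw [hb', mul_assoc, hkz, ← mul_assoc, haz, mul_assoc]
        refine hne fun v => ⟨fun hv => ?_, fun hv => ?_⟩
        · exact hcommute z hzT b hb hz1 hbz.symm v (hcommute a ha z hzT ha1 haz v hv)
        · exact hcommute z hzT a ha hz1 haz.symm v (hcommute b hb z hzT hb1 hbz v hv)
      · exact h
    have hCk : ∀ v : V, k • v = v → a • v = v := key k hkT hk1 a ha fun v hv => by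
      have hkv : k⁻¹ • v = v := by rw [inv_smul_eq_iff, hv]
      rw [smul_smul, show k * a = a * k⁻¹ by rw [← haka, ← mul_assoc, ← mul_assoc, haa, one_mul],
        mul_smul, hkv]
    let U : AddSubgroup V := fixedVec ({a} : Set H) ⊔ fixedVec ({b} : Set H)
    have hUa : ∀ x : V, a • x = x → x ∈ U := fun x hx => AddSubgroup.mem_sup_left (mem_fixed.2 hx)
    have hUb : ∀ x : V, b • x = x → x ∈ U := fun x hx => AddSubgroup.mem_sup_right (mem_fixed.2 hx)
    have hfixadd : ∀ c : H, c * c = 1 → ∀ x : V, c • (c • x + x) = c • x + x := fun c hc x => by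
      rw [smul_add, smul_smul, hc, one_smul, add_comm]
    have hneg : ∀ x y : V, x - y = x + y := fun x y => by
      rw [sub_eq_add_neg, neg_eq_of_add_eq_zero_left (h2 y)]
    have hstep : ∀ x : V, k • x - x ∈ U := by
      intro x
      have e : k • x - x = (a • (b • x + x) + (b • x + x)) + (b • x + x) + (a • x + x) := by
        rw [hneg, hk, mul_smul, smul_add]
        have := h2 (b • x + x)
        rw [add_assoc (a • b • x + a • x), this, add_zero, add_assoc (a • b • x), ← add_assoc (a • x),
          h2, zero_add]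
      rw [e]
      exact U.add_mem (U.add_mem (hUa _ (hfixadd a haa _)) (hUb _ (hfixadd b hbb x)))
        (hUa _ (hfixadd a haa x))
    intro v
    have hpow : ∀ i : ℕ, k ^ i • v - v ∈ U := by
      intro i
      induction i with
      | zero => simp
      | succ i ih =>
        have := U.add_mem (hstep (k ^ i • v)) ih
        rwa [← mul_smul, ← pow_succ', sub_add_sub_cancel] at this
    set r := orderOf k
    have hsum : (∑ i ∈ Finset.range r, k ^ i • v) ∈ U := by
      refine hUa _ (hCk _ ?_)
      rw [Finset.smul_sum]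
      simp_rw [← mul_smul, ← pow_succ']
      have h1 := Finset.sum_range_succ (fun i => k ^ i • v) r
      have h3 := Finset.sum_range_succ' (fun i => k ^ i • v) r
      rw [pow_orderOf_eq_one, one_smul] at h1
      rw [pow_zero, one_smul, h1] at h3
      exact (add_right_cancel h3).symm
    have hrv : r • v ∈ U := by
      have : r • v = (∑ i ∈ Finset.range r, k ^ i • v) -
          ∑ i ∈ Finset.range r, (k ^ i • v - v) := by
        rw [Finset.sum_sub_distrib, sub_sub_cancel, Finset.sum_const, Finset.card_range]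
      rw [this]
      exact U.sub_mem hsum (U.sum_mem fun i _ => hpow i)
    have hvU : v ∈ U := by
      obtain ⟨j, hj⟩ := hodd
      rw [hj, succ_nsmul, mul_comm, mul_nsmul', two_nsmul, h2, nsmul_zero, zero_add] at hrv
      exact hrv
    obtain ⟨x, hx, y, hy, hxy⟩ := AddSubgroup.mem_sup.1 hvU
    exact ⟨x, y, mem_fixed.1 hx, mem_fixed.1 hy, hxy⟩
  -- an involution of `T` and the stabiliser of its fixed space
  obtain ⟨⟨t, htT⟩, hto⟩ := CfsgLib.OddCons.Basic.exists_involution hFT
    (CfsgLib.OddCons.Basic.not_isSolvable_of_simple hTna)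
  have ht1 : t ≠ 1 := by
    intro e; subst e
    rw [show (⟨1, htT⟩ : T) = 1 from rfl, orderOf_one] at hto
    omega
  have htt : t * t = 1 := by
    have := congrArg Subtype.val (pow_orderOf_eq_one (⟨t, htT⟩ : T))
    rw [hto, pow_two] at this
    exact this
  let M : Subgroup T :=
    { carrier := {g | ∀ v : V, t • v = v ↔ t • (g : H) • v = (g : H) • v}
      one_mem' := fun v => by simp
      mul_mem' := fun {a b} ha hb v => by
        rw [hb v, ha ((b : H) • v), ← mul_smul (a : H)]
        rfl
      inv_mem' := fun {a} ha v => by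
        have h := ha ((a : H)⁻¹ • v)
        rw [smul_inv_smul] at h
        exact h.symm }
  have hMfix : ∀ g ∈ M, ∀ v : V, t • v = v → (g : H) • v = v := fun g hg =>
    key t htT ht1 g g.2 fun v hv => (hg v).1 hv
  have htM : (⟨t, htT⟩ : T) ∈ M := fun v => by
    show t • v = v ↔ t • t • v = t • v
    exact ⟨fun h => by rw [h, h], fun h => by rwa [smul_smul, htt, one_smul, eq_comm] at h⟩
  have hMbot : M ≠ ⊥ := fun e => ht1
    (congrArg Subtype.val ((Subgroup.eq_bot_iff_forall M).1 e _ htM))
  have hMtop : M ≠ ⊤ := fun e => by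
    obtain ⟨v, hv, hfix⟩ := exists_fixed_of_sq_eq_one (V := V) h2 htt
    exact hv (factor_fixed_eq_zero D D.mem fun x hx =>
      hMfix ⟨x, hx⟩ (e ▸ Subgroup.mem_top _) v hfix)
  have hFrob : Cfsg.IsFrobeniusComplement M := by
    refine ⟨hMbot, hMtop, fun g hg => ?_⟩
    rw [Subgroup.eq_bot_iff_forall]
    rintro x ⟨hxM, hxg⟩
    obtain ⟨y, hy, hyx⟩ := hxg
    have hxy : (x : H) = g * y * (g : H)⁻¹ := by rw [← hyx]; rfl
    set t' : H := g * t * (g : H)⁻¹ with ht'
    have ht'T : t' ∈ T := T.mul_mem (T.mul_mem g.2 htT) (T.inv_mem g.2)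
    have ht'1 : t' ≠ 1 := fun e => ht1 (by simpa [ht'] using e)
    have ht't' : t' * t' = 1 := by
      rw [ht', show (g : H) * t * (g : H)⁻¹ * (g * t * (g : H)⁻¹) = g * (t * t) * (g : H)⁻¹ by group,
        htt, mul_one, mul_inv_cancel]
    have hdiff : ¬ (∀ v : V, t • v = v ↔ t' • v = v) := fun h => hg fun v => by
      rw [h ((g : H) • v), ht', mul_smul, mul_smul, inv_smul_smul, smul_left_cancel_iff]
    refine Subtype.ext (D.setting.faithful _ fun v => ?_)
    obtain ⟨p, q, hp, hq, rfl⟩ := hpair t htT t' ht'T htt ht't' ht1 ht'1 hdiff v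
    have hq' : t • ((g : H)⁻¹ • q) = (g : H)⁻¹ • q := by
      rw [ht', mul_smul, mul_smul, ← eq_inv_smul_iff] at hq
      exact hq
    rw [smul_add, hMfix x hxM p hp, hxy, mul_smul, mul_smul, hMfix y hy _ hq', smul_inv_smul]
  obtain ⟨K, hKn, -, hKc, hKM, -⟩ := CfsgLib.Chars.Apps.frobenius_kernel_theorem hFrob
  rcases hKn.eq_bot_or_eq_top with e | e
  · rw [e, Subgroup.card_bot] at hKc
    exact hMtop (Subgroup.index_eq_one.1 hKc.symm)
  · rw [e, top_inf_eq] at hKM
    exact hMbot hKM

/-- An insoluble irreducible group in characteristic two with maximal vector stabilisers is almost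
simple. -/
theorem almost_simple (hFT : CfsgLib.OddStep.P0205.{u}) (hS : Setting H V)
    (hsol : ¬ Group.IsSolvable H) :
    ∃ T : Subgroup H, T.Normal ∧ IsSimpleGroup T ∧ ¬ IsMulCommutative T ∧
      Subgroup.centralizer (T : Set H) = ⊥ := by
  classical
  obtain ⟨N, hN, hna, hC⟩ := exists_minimal_centralizer_eq_bot hS hFT hsol
  haveI := hN.normal
  obtain ⟨s, hs⟩ := hN.exists_isFactors hna
  obtain ⟨T, hT⟩ := hs.nonempty
  by_cases he : s.erase T = ∅
  · have hsT : s = {T} := by
      rw [Finset.erase_eq_empty_iff] at he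
      exact he.resolve_left hs.nonempty.ne_empty
    have hNT : N = T := by
      rw [← hs.sup_eq, hsT, Finset.sup_singleton]
      rfl
    subst hNT
    exact ⟨N, hN.normal, hs.simple N hT, hna, hC⟩
  · exfalso
    obtain ⟨S₀, hS₀⟩ := Finset.nonempty_iff_ne_empty.2 he
    refine false_of_data hFT (N := N) (T := T) (T' := (s.erase T).sup id) (S₀ := S₀) (s := s)
      ⟨hS, hN.normal, hN.ne_bot, hs, hT, Finset.mem_of_mem_erase hS₀, Finset.ne_of_mem_erase hS₀,
        Finset.le_sup (f := id) hS₀,
        Finset.sup_le fun S hS => hs.le S (Finset.mem_of_mem_erase hS), ?_, ?_⟩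
    · intro n hn
      have hle : ∀ n ∈ N, ((s.erase T).sup id).map (MulAut.conj n).toMonoidHom ≤ (s.erase T).sup id := by
        intro n hn
        rw [Subgroup.map_le_iff_le_comap]
        refine Finset.sup_le fun S hS => ?_
        intro x hx
        refine Subgroup.mem_comap.2 (Finset.le_sup (f := id) hS ?_)
        exact (Subgroup.mem_normalizer_iff.1 (hs.normalized S (Finset.mem_of_mem_erase hS) hn) x).1 hx
      rw [Subgroup.mem_normalizer_iff]
      intro x
      refine ⟨fun hx => hle n hn ⟨x, hx, rfl⟩, fun hx => ?_⟩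
      have := hle n⁻¹ (N.inv_mem hn) ⟨_, hx, rfl⟩
      simpa [mul_assoc] using this
    · intro x hx y hy
      have : (s.erase T).sup id ≤ Subgroup.centralizer ({x} : Set H) := Finset.sup_le fun S hS =>
        fun z hz => Subgroup.mem_centralizer_singleton_iff.2
          (hs.commute S (Finset.mem_of_mem_erase hS) T hT (Finset.ne_of_mem_erase hS) z hz x hx)
      exact (Subgroup.mem_centralizer_singleton_iff.1 (this hy)).symm

end CfsgLib.OddCons.ExtremelyPrimitive
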