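import Mathlib
import Cfsg.Agent.MinNormal.Primitive
import Cfsg.Agent.OddCons.ExtremelyPrimitive.AlmostSimple

/-!
# Insoluble extremely primitive groups of affine type (statement S3521)
-/

set_option autoImplicit false

open MulAction

namespace CfsgLib.OddCons.ExtremelyPrimitive

universe u

/-- S3521, from the odd order theorem. -/
theorem main (hFT : CfsgLib.OddStep.P0205.{u}) {G : Type u} [Group G] [Finite G] {Ω : Type*}
    [Fintype Ω] [MulAction G Ω] [FaithfulSMul G Ω] (p d : ℕ) (hp : p.Prime)
    (hcard : Fintype.card Ω = p ^ d) (hsol : ¬ Group.IsSolvable G) (N : Subgroup G) [N.Normal]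
    (hN : N ≠ ⊥) (hNc : IsMulCommutative N) (hNreg : ∀ ω : Ω, stabilizer N ω = ⊥)
    (hprim : IsPreprimitive G Ω) (hH : ∀ α : Ω, stabilizer G α ≠ ⊥)
    (hep : ∀ (α : Ω) (ω : Ω), IsPreprimitive (stabilizer G α) (orbit (stabilizer G α) ω)) (α : Ω) :
    p = 2 ∧ ∃ T : Subgroup (stabilizer G α), T.Normal ∧ IsSimpleGroup T ∧ ¬ IsMulCommutative T ∧
      Subgroup.centralizer (T : Set (stabilizer G α)) = ⊥ := by
  haveI := hprim
  haveI := hNc
  haveI := Fact.mk hp
  haveI hNtrans : IsPretransitive N Ω := CfsgLib.MinNormal.isPretransitive_of_normal ‹N.Normal› hN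
  haveI : Nontrivial N := (Subgroup.nontrivial_iff_ne_bot N).2 hN
  set H := stabilizer G α with hHdef
  letI : CommGroup N := { (inferInstance : Group N) with mul_comm := hNc.is_comm.comm }
  letI act : DistribMulAction H (Additive N) :=
    { smul := fun h v => Additive.ofMul (MulAut.conjNormal (h : G) v.toMul)
      one_smul := fun v => by
        show Additive.ofMul (MulAut.conjNormal ((1 : H) : G) v.toMul) = v
        simp
      mul_smul := fun a b v => by
        show Additive.ofMul (MulAut.conjNormal ((a * b : H) : G) v.toMul) =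
          Additive.ofMul (MulAut.conjNormal (a : G) (MulAut.conjNormal (b : G) v.toMul))
        simp
      smul_zero := fun a => by
        show Additive.ofMul (MulAut.conjNormal (a : G) (1 : N)) = 0
        simp
      smul_add := fun a v w => by
        show Additive.ofMul (MulAut.conjNormal (a : G) (v.toMul * w.toMul)) = _
        rw [map_mul]
        rfl }
  -- the points and the vectors correspond
  have hinj : ∀ m n : N, m • α = n • α → m = n := fun m n h => by
    have h1 : n⁻¹ * m ∈ stabilizer N α := by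
      rw [mem_stabilizer_iff, mul_smul, h, inv_smul_smul]
    rw [hNreg α, Subgroup.mem_bot, inv_mul_eq_one] at h1
    exact h1.symm
  have hequiv : ∀ (h : H) (v : Additive N), (h • v).toMul • α = (h : G) • (v.toMul • α) := by
    intro h v
    show ((h : G) * (v.toMul : G) * (h : G)⁻¹) • α = (h : G) • ((v.toMul : G) • α)
    rw [mul_smul, mul_smul, (inv_smul_eq_iff.2 (h.2 : (h : G) • α = α).symm)]
  have hfix : ∀ (h : H) (v : Additive N), h • v = v ↔ (h : G) • (v.toMul • α) = v.toMul • α := by
    intro h v
    rw [← hequiv]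
    exact ⟨fun e => by rw [e], fun e => Additive.toMul.injective (hinj _ _ e)⟩
  have hfaith : ∀ h : H, (∀ v : Additive N, h • v = v) → h = 1 := by
    intro h hh
    refine Subtype.ext (FaithfulSMul.eq_of_smul_eq_smul (α := Ω) fun ω => ?_)
    obtain ⟨n, rfl⟩ := exists_smul_eq N α ω
    simpa using (hfix h (Additive.ofMul n)).1 (hh _)
  have hHne : ∀ v : Additive N, v ≠ 0 → ∃ h : H, h • v ≠ v := by
    intro v hv
    by_contra hall
    push Not at hall
    -- then `H` centralises a nontrivial normal subgroup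
    let C : Subgroup G := (Subgroup.zpowers (v.toMul : G))
    have hCn : C.Normal := ⟨fun x hx g => by
      obtain ⟨n, hn⟩ := exists_smul_eq N α (g • α)
      have hh : (n : G)⁻¹ * g ∈ H := by
        rw [hHdef, mem_stabilizer_iff, mul_smul, inv_smul_eq_iff]
        exact hn.symm
      obtain ⟨k, rfl⟩ := Subgroup.mem_zpowers_iff.1 hx
      have h1 : ((n : G)⁻¹ * g) * (v.toMul : G) * ((n : G)⁻¹ * g)⁻¹ = (v.toMul : G) :=
        congrArg (fun w : Additive N => (w.toMul : G)) (hall ⟨_, hh⟩)
      have h2 : (n : G) * (v.toMul : G) * (n : G)⁻¹ = (v.toMul : G) := by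
        have := congrArg Subtype.val (mul_comm n v.toMul)
        simp only [Subgroup.coe_mul] at this
        rw [this, mul_inv_cancel_right]
      have h3 : g * (v.toMul : G) * g⁻¹ = (v.toMul : G) := by
        calc g * (v.toMul : G) * g⁻¹
            = (n : G) * (((n : G)⁻¹ * g) * (v.toMul : G) * ((n : G)⁻¹ * g)⁻¹) * (n : G)⁻¹ := by group
          _ = _ := by rw [h1, h2]
      rw [← conj_zpow, h3]
      exact Subgroup.zpow_mem_zpowers _ k⟩
    have hC1 : C ≠ ⊥ := fun e => hv (by
      have : (v.toMul : G) = 1 := Subgroup.zpowers_eq_bot.1 e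
      exact Additive.toMul.injective (Subtype.ext this))
    haveI : IsPretransitive C Ω := CfsgLib.MinNormal.isPretransitive_of_normal hCn hC1
    refine hH α ((Subgroup.eq_bot_iff_forall _).2 fun h hh => congrArg Subtype.val
      (hfaith ⟨h, hh⟩ fun w => (hfix _ w).2 ?_))
    obtain ⟨⟨c, hc⟩, hcα⟩ := exists_smul_eq C α (w.toMul • α)
    rw [← hcα]
    obtain ⟨k, rfl⟩ := Subgroup.mem_zpowers_iff.1 hc
    show h • ((v.toMul : G) ^ k) • α = ((v.toMul : G) ^ k) • α
    have h1 : h * (v.toMul : G) * h⁻¹ = (v.toMul : G) :=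
      congrArg (fun w : Additive N => (w.toMul : G)) (hall ⟨h, hh⟩)
    rw [← mul_smul, show h * (v.toMul : G) ^ k = (v.toMul : G) ^ k * h from
      (Commute.zpow_right (mul_inv_eq_iff_eq_mul.1 h1 : Commute h (v.toMul : G)) k).eq, mul_smul,
      (hh : h • α = α)]
  have hirred : ∀ W : AddSubgroup (Additive N), (∀ h : H, ∀ w ∈ W, h • w ∈ W) → W = ⊥ ∨ W = ⊤ := by
    intro W hW
    rw [or_iff_not_imp_left]
    intro hW1
    let W' : Subgroup G := (AddSubgroup.toSubgroup' W).map N.subtype
    have hW'n : W'.Normal := ⟨fun x hx g => by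
      obtain ⟨w, hw, rfl⟩ := hx
      obtain ⟨n, hn⟩ := exists_smul_eq N α (g • α)
      have hh : (n : G)⁻¹ * g ∈ H := by
        rw [hHdef, mem_stabilizer_iff, mul_smul, inv_smul_eq_iff]
        exact hn.symm
      refine ⟨((⟨_, hh⟩ : H) • Additive.ofMul w).toMul, hW _ _ hw, ?_⟩
      have hcn := congrArg Subtype.val
        (mul_comm n ((⟨_, hh⟩ : H) • Additive.ofMul w).toMul)
      simp only [Subgroup.coe_mul] at hcn
      show (((⟨_, hh⟩ : H) • Additive.ofMul w).toMul : G) = g * (w : G) * g⁻¹
      calc (((⟨_, hh⟩ : H) • Additive.ofMul w).toMul : G)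
          = (n : G) * (((⟨_, hh⟩ : H) • Additive.ofMul w).toMul : G) * (n : G)⁻¹ := by
            rw [hcn, mul_inv_cancel_right]
        _ = (n : G) * (((n : G)⁻¹ * g) * (w : G) * ((n : G)⁻¹ * g)⁻¹) * (n : G)⁻¹ := rfl
        _ = g * (w : G) * g⁻¹ := by group⟩
    have hW'1 : W' ≠ ⊥ := fun e => hW1 <| (AddSubgroup.eq_bot_iff_forall _).2 fun w hw => by
      have h1 : (w.toMul : G) ∈ W' := ⟨w.toMul, hw, rfl⟩
      rw [e, Subgroup.mem_bot] at h1
      exact Additive.toMul.injective (Subtype.ext h1)
    haveI : IsPretransitive W' Ω := CfsgLib.MinNormal.isPretransitive_of_normal hW'n hW'1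
    rw [eq_top_iff]
    intro v _
    obtain ⟨⟨w, hw⟩, hwα⟩ := exists_smul_eq W' α (v.toMul • α)
    obtain ⟨w', hw', rfl⟩ := hw
    have : w' = v.toMul := hinj _ _ hwα
    subst this
    exact hw'
  have hcoatom : ∀ v : Additive N, v ≠ 0 → IsCoatom (stabilizer H v) := by
    intro v hv
    obtain ⟨h, hh⟩ := hHne v hv
    set ω := v.toMul • α with hω
    haveI : Nontrivial (orbit H ω) := ⟨⟨ω, mem_orbit_self ω⟩, ⟨h • ω, mem_orbit ω h⟩, fun e =>
      hh ((hfix h v).2 (congrArg Subtype.val e).symm)⟩
    haveI := hep α ω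
    have hst : stabilizer H v = stabilizer H (⟨ω, mem_orbit_self ω⟩ : orbit H ω) := by
      ext k
      rw [mem_stabilizer_iff, mem_stabilizer_iff, hfix, Subtype.ext_iff]
      rfl
    rw [hst]
    exact (isCoatom_stabilizer_iff_preprimitive H _).2 (hep α ω)
  have hHsol : ¬ Group.IsSolvable H := by
    intro hs
    haveI := hs
    refine hsol (Basic.isSolvable_of_normal N (Group.isSolvable_of_comm fun a b => mul_comm a b) ?_)
    refine Group.isSolvable_of_surjective (f := (QuotientGroup.mk' N).comp H.subtype) fun q => ?_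
    obtain ⟨g, rfl⟩ := QuotientGroup.mk'_surjective N q
    obtain ⟨n, hn⟩ := exists_smul_eq N α (g • α)
    have hh : (n : G)⁻¹ * g ∈ H := by
      rw [hHdef, mem_stabilizer_iff, mul_smul, inv_smul_eq_iff]
      exact hn.symm
    refine ⟨⟨_, hh⟩, ?_⟩
    simp [(QuotientGroup.eq_one_iff _).2 n.2]
  have hd0 : d ≠ 0 := by
    rintro rfl
    obtain ⟨a, b, hab⟩ := exists_pair_ne N
    rw [pow_zero, Fintype.card_eq_one_iff] at hcard
    obtain ⟨x, hx⟩ := hcard
    exact hab (hinj a b ((hx _).trans (hx _).symm))
  have hptors : ∀ v : Additive N, p • v = 0 := by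
    let W : AddSubgroup (Additive N) :=
      { carrier := {v | p • v = 0}
        zero_mem' := nsmul_zero p
        add_mem' := fun {a b} ha hb => by
          show p • (a + b) = 0
          rw [nsmul_add, ha, hb, add_zero]
        neg_mem' := fun {a} ha => by
          show p • (-a) = 0
          rw [neg_nsmul, ha, neg_zero] }
    have hWinv : ∀ h : H, ∀ w ∈ W, h • w ∈ W := fun h w hw => by
      show p • (h • w) = 0
      rw [← smul_comm h p w, hw, smul_zero]
    rcases hirred W hWinv with e | e
    · exfalso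
      have hdvd : p ∣ Nat.card N := by
        have hb : Function.Bijective fun n : N => n • α :=
          ⟨fun a b => hinj a b, fun ω => exists_smul_eq N α ω⟩
        rw [Nat.card_congr (Equiv.ofBijective _ hb), Nat.card_eq_fintype_card, hcard]
        exact dvd_pow_self p hd0
      obtain ⟨x, hx⟩ := exists_prime_orderOf_dvd_card' p hdvd
      have hxW : Additive.ofMul x ∈ W := by
        show p • Additive.ofMul x = 0
        rw [← ofMul_pow, ← hx, pow_orderOf_eq_one]
        rfl
      rw [e, AddSubgroup.mem_bot, ofMul_eq_zero] at hxW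
      rw [hxW, orderOf_one] at hx
      exact hp.ne_one hx.symm
    · intro v
      exact (e ▸ AddSubgroup.mem_top v : v ∈ W)
  have hp2 : p = 2 := by
    by_contra hne
    obtain ⟨t, ht⟩ := Basic.exists_involution hFT hHsol
    have htt : t * t = 1 := by rw [← pow_two, ← ht, pow_orderOf_eq_one]
    obtain ⟨v, hv⟩ : ∃ v : Additive N, t • v ≠ v := by
      by_contra h
      push Not at h
      rw [hfaith t h, orderOf_one] at ht
      omega
    set w := t • v - v with hw
    have hw0 : w ≠ 0 := sub_ne_zero.2 hv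
    have htw : t • w = -w := by rw [hw, smul_sub, smul_smul, htt, one_smul, neg_sub]
    have hneq : w ≠ -w := fun e => by
      apply hw0
      have h1 : 2 • w = 0 := by rw [two_nsmul]; nth_rewrite 2 [e]; exact add_neg_cancel w
      have hco : Nat.Coprime p 2 := (Nat.coprime_primes hp Nat.prime_two).2 hne
      have h3 := Nat.dvd_gcd (addOrderOf_dvd_of_nsmul_eq_zero (hptors w))
        (addOrderOf_dvd_of_nsmul_eq_zero h1)
      rw [hco.gcd_eq_one, Nat.dvd_one, AddMonoid.addOrderOf_eq_one_iff] at h3
      exact h3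
    let K : Subgroup H :=
      { carrier := {h | h • w = w ∨ h • w = -w}
        one_mem' := Or.inl (one_smul H w)
        mul_mem' := fun {a b} ha hb => by
          show (a * b) • w = w ∨ (a * b) • w = -w
          rw [mul_smul]
          rcases hb with hb | hb <;> rw [hb]
          · exact ha
          · rw [smul_neg]
            rcases ha with ha | ha <;> rw [ha]
            · exact Or.inr rfl
            · exact Or.inl (neg_neg w)
        inv_mem' := fun {a} ha => by
          show a⁻¹ • w = w ∨ a⁻¹ • w = -w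
          rw [inv_smul_eq_iff, inv_smul_eq_iff, smul_neg]
          rcases ha with ha | ha
          · exact Or.inl ha.symm
          · exact Or.inr (by rw [ha, neg_neg]) }
    have hKtop : K = ⊤ := by
      refine (hcoatom w hw0).2 K (lt_of_le_of_ne (fun k hk => Or.inl hk) fun e => hneq ?_)
      have htK : t ∈ stabilizer H w := e ▸ (Or.inr htw : t ∈ K)
      exact (mem_stabilizer_iff.1 htK).symm.trans htw
    have hall : ∀ h : H, h • w = w ∨ h • w = -w := fun h =>
      (hKtop ▸ Subgroup.mem_top h : h ∈ K)
    apply hHsol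
    refine Group.isSolvable_of_comm fun a b => ?_
    have hab : (a * b) • w = (b * a) • w := by
      rw [mul_smul, mul_smul]
      rcases hall a with ha | ha <;> rcases hall b with hb | hb <;>
        simp only [ha, hb, smul_neg]
    rcases hirred (AddSubgroup.zmultiples w) (fun h x hx => by
      obtain ⟨m, rfl⟩ := AddSubgroup.mem_zmultiples_iff.1 hx
      rw [smul_comm h m w]
      rcases hall h with e | e <;> rw [e]
      · exact AddSubgroup.zsmul_mem _ (AddSubgroup.mem_zmultiples w) m
      · exact AddSubgroup.zsmul_mem _ (neg_mem (AddSubgroup.mem_zmultiples w)) m) with e | e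
    · exact absurd (AddSubgroup.zmultiples_eq_bot.1 e) hw0
    · refine inv_mul_eq_one.1 ?_ |>.symm
      refine hfaith _ fun x => ?_
      obtain ⟨m, rfl⟩ := AddSubgroup.mem_zmultiples_iff.1
        (e ▸ AddSubgroup.mem_top x : x ∈ AddSubgroup.zmultiples w)
      rw [smul_comm _ m w, mul_smul, inv_smul_eq_iff.2 hab]
  subst hp2
  refine ⟨rfl, ?_⟩
  haveI : Finite (Additive N) := Finite.of_equiv N Additive.ofMul
  exact almost_simple hFT ⟨fun v => by rw [← two_nsmul, hptors], inferInstance, hfaith, hirred,
    hcoatom⟩ hHsol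

end CfsgLib.OddCons.ExtremelyPrimitive
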